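import Mathlib
import Cfsg.Agent.Grp.Card

/-! Elementary facts on groups acting on elementary abelian `2`-groups. -/

set_option autoImplicit false
set_option linter.style.haveILetI false
set_option linter.unusedSectionVars false

namespace Cfsg.Agent.RealG

open Subgroup MulAction

variable {K U : Type*} [Group K] [CommGroup U] [MulDistribMulAction K U]

/-- fixed points of an element -/
def fx (U : Type*) [CommGroup U] [MulDistribMulAction K U] (g : K) : Subgroup U where
  carrier := {u | g • u = u}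
  one_mem' := smul_one g
  mul_mem' := fun {a b} ha hb => by
    show g • (a * b) = a * b
    rw [smul_mul', ha, hb]
  inv_mem' := fun {a} ha => by
    show g • a⁻¹ = a⁻¹
    rw [smul_inv', ha]

theorem mem_fx {g : K} {u : U} : u ∈ fx U g ↔ g • u = u := Iff.rfl

/-- fixed points of a subgroup -/
def fs (U : Type*) [CommGroup U] [MulDistribMulAction K U] (T : Subgroup K) : Subgroup U :=
  ⨅ g ∈ T, fx U g

theorem mem_fs {T : Subgroup K} {u : U} : u ∈ fs U T ↔ ∀ g ∈ T, g • u = u := by
  simp [fs, mem_iInf, mem_fx]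

variable [Finite U]

theorem card_modEq_fx {p k : ℕ} [Fact p.Prime] {h : K} (hp : h ^ p ^ k = 1) (Y : Subgroup U)
    (hY : ∀ y ∈ Y, h • y ∈ Y) : Nat.card Y ≡ Nat.card ↥(Y ⊓ fx U h) [MOD p] := by
  classical
  letI := Fintype.ofFinite Y
  let f : Function.End Y := fun y => ⟨h • y.1, hY _ y.2⟩
  have hf : ∀ (n : ℕ) (y : Y), ((f ^ n) y).1 = h ^ n • y.1 := by
    intro n
    induction n with
    | zero => intro y; simp; rfl
    | succ n ih =>
      intro y
      rw [pow_succ, pow_succ, mul_smul]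
      exact ih (f y)
  have h1 := Equiv.Perm.card_fixedPoints_modEq (f := f) (p := p) (n := k)
    (funext fun y => Subtype.ext (by rw [hf, hp, one_smul]; rfl))
  rw [← Nat.card_eq_fintype_card, ← Nat.card_eq_fintype_card] at h1
  convert h1 using 1
  exact Nat.card_congr
    { toFun := fun y => ⟨⟨y.1, y.2.1⟩, Subtype.ext y.2.2⟩
      invFun := fun y => ⟨y.1.1, y.1.2, congrArg Subtype.val y.2⟩
      left_inv := fun _ => rfl
      right_inv := fun _ => rfl }

theorem exists_card_two (h2 : ∀ u : U, u * u = 1) (Y : Subgroup U) : ∃ m, Nat.card Y = 2 ^ m :=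
  IsPGroup.exists_card_eq fun y => ⟨1, Subtype.ext (by simpa [sq] using h2 y)⟩

theorem card_le_sq (h2 : ∀ u : U, u * u = 1) {s : K} (hs : s * s = 1) :
    Nat.card U ≤ Nat.card (fx U s) * Nat.card (fx U s) := by
  let f : U →* U := (MonoidHom.id U) * MulDistribMulAction.toMonoidHom U s
  have hf : ∀ u, f u = u * s • u := fun _ => rfl
  rw [← f.ker.card_mul_index, index_ker]
  refine Nat.mul_le_mul (card_le_of_le fun u hu => ?_) (card_le_of_le ?_)
  · rw [MonoidHom.mem_ker, hf, ← h2 u] at hu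
    exact mul_left_cancel hu
  · rintro _ ⟨u, rfl⟩
    rw [mem_fx, hf, smul_mul', smul_smul, hs, one_smul, mul_comm]

theorem card_mul_le {A B : Subgroup U} (h : A ⊓ B = ⊥) : Nat.card A * Nat.card B ≤ Nat.card U := by
  rw [← Grp.card_sup_of_disjoint A B h]
  exact card_le_card_group _

/-- the centraliser of an irreducible element is cyclic -/
theorem isCyclic_cent [Finite K] [Nontrivial U] (hf : ∀ g : K, (∀ u : U, g • u = u) → g = 1) {x : K}
    (hx : ∀ Y : Subgroup U, (∀ y ∈ Y, x • y ∈ Y) → Y = ⊥ ∨ Y = ⊤) :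
    IsCyclic (centralizer ({x} : Set K)) := by
  let ρ := Representation.ofMulDistribMulAction K U
  let R := Subring.centralizer ({ρ x} : Set (Module.End ℤ (Additive U)))
  have key : ∀ a : R, a ≠ 0 → Function.Injective (a : Module.End ℤ (Additive U)) := fun a ha => by
    have hc : ρ x * a = a * ρ x := a.2 _ rfl
    rcases hx (LinearMap.ker (a : Module.End ℤ (Additive U))).toAddSubgroup.toSubgroup' (fun y hy => by
      have h1 : (a : Module.End ℤ (Additive U)) (Additive.ofMul y) = 0 := hy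
      show (a : Module.End ℤ (Additive U)) (ρ x (Additive.ofMul y)) = 0
      rw [← Module.End.mul_apply, ← hc, Module.End.mul_apply, h1, map_zero]) with h0 | h0
    · refine (injective_iff_map_eq_zero _).2 fun v hv => ?_
      have : Additive.toMul v ∈ (⊥ : Subgroup U) := h0 ▸ hv
      exact Additive.toMul.injective (Subgroup.mem_bot.1 this)
    · refine absurd (Subtype.ext (LinearMap.ext fun v => ?_)) ha
      have : Additive.toMul v ∈ (⊤ : Subgroup U) := trivial
      rw [← h0] at this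
      exact this
  haveI : NoZeroDivisors R := ⟨fun {a b} e => by
    by_cases ha : a = 0
    · exact Or.inl ha
    · refine Or.inr (Subtype.ext (LinearMap.ext fun v => key a ha ?_))
      have := congrArg (fun c : R => (c : Module.End ℤ (Additive U)) v) e
      simpa using this⟩
  haveI : IsDomain R := NoZeroDivisors.to_isDomain _
  haveI : Finite (Module.End ℤ (Additive U)) := Finite.of_injective _ DFunLike.coe_injective
  letI := (Finite.isDomain_to_isField R).toField
  let f : centralizer ({x} : Set K) →* R :=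
    { toFun := fun g => ⟨ρ g, fun y hy => by
        rw [Set.mem_singleton_iff.1 hy, ← map_mul, ← map_mul, g.2 x rfl]⟩
      map_one' := Subtype.ext (map_one ρ)
      map_mul' := fun a b => Subtype.ext (map_mul ρ _ _) }
  refine isCyclic_of_injective_ringHom f fun a b e => Subtype.ext ?_
  rw [← inv_mul_eq_one]
  refine hf _ fun u => ?_
  have := congrArg (fun c : R => (c : Module.End ℤ (Additive U)) (Additive.ofMul u)) e
  rw [mul_smul, inv_smul_eq_iff]
  exact Additive.ofMul.injective this.symm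

/-- elements of primitive prime order act irreducibly -/
theorem irred_of_ppd (h2 : ∀ u : U, u * u = 1) (hf : ∀ g : K, (∀ u : U, g • u = u) → g = 1)
    {n r : ℕ} (hn : Nat.card U = 2 ^ n) (hr : r.Prime) (h1 : r ∣ 2 ^ n - 1)
    (h3 : ∀ k : ℕ, 0 < k → k < n → ¬ r ∣ 2 ^ k - 1) {x : K} (hx : orderOf x = r) (Y : Subgroup U)
    (hY : ∀ y ∈ Y, x • y ∈ Y) : Y = ⊥ ∨ Y = ⊤ := by
  haveI := Fact.mk hr
  have hp : x ^ r ^ 1 = 1 := by rw [pow_one, ← hx, pow_orderOf_eq_one]
  have key : ∀ Z : Subgroup U, Nat.card Z ≡ 1 [MOD r] → Z = ⊥ ∨ Z = ⊤ := fun Z hZ => by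
    obtain ⟨m, hm⟩ := exists_card_two h2 Z
    rw [hm] at hZ
    rcases Nat.eq_zero_or_pos m with rfl | h0
    · exact Or.inl (card_eq_one.1 hm)
    · refine Or.inr (eq_top_of_le_card _ ?_)
      rw [hn, hm]
      exact Nat.pow_le_pow_right two_pos (not_lt.1 fun h =>
        h3 m h0 h ((Nat.modEq_iff_dvd' Nat.one_le_two_pow).1 hZ.symm))
  have h4 := card_modEq_fx hp (⊤ : Subgroup U) fun _ _ => trivial
  rw [card_top, hn, top_inf_eq] at h4
  rcases key _ (h4.symm.trans ((Nat.modEq_iff_dvd' Nat.one_le_two_pow).2 h1).symm) with h | h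
  · have h5 := card_modEq_fx hp Y hY
    rw [h, inf_bot_eq, card_bot] at h5
    exact key Y h5
  · have := hf x fun u => mem_fx.1 (h ▸ mem_top u)
    rw [this, orderOf_one] at hx
    exact absurd hx hr.one_lt.ne

theorem three_or_seven (h2 : ∀ u : U, u * u = 1) {T : Subgroup K} [Finite T] (hT : IsPGroup 2 T)
    {h : K} {p : ℕ} (hp : p.Prime) (hp2 : p ≠ 2) (hh : h ^ p = 1)
    (hn : ∀ t ∈ T, h⁻¹ * t * h ∈ T) (h1 : fx U h ≠ ⊤) {s : K} (hs : s ∈ T)
    (h8 : Nat.card (fx U s) ≤ 8) : p = 3 ∨ p = 7 := by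
  haveI := Fact.mk hp
  obtain ⟨Z, ⟨hZ1, hZ2⟩, hmax⟩ := Set.Finite.exists_maximal (Set.toFinite
    {Z : Subgroup U | (∀ t ∈ T, ∀ z ∈ Z, t • z ∈ Z) ∧ Z ≤ fx U h})
    ⟨⊥, fun t _ z hz => by rw [Subgroup.mem_bot.1 hz, smul_one]; exact one_mem _, bot_le⟩
  let Y : Subgroup U :=
    { carrier := {y | ∀ t ∈ T, y⁻¹ * t • y ∈ Z}
      one_mem' := fun t _ => by simp
      mul_mem' := fun {a b} ha hb t ht => by
        rw [smul_mul', mul_inv, mul_mul_mul_comm]
        exact mul_mem (ha t ht) (hb t ht)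
      inv_mem' := fun {a} ha t ht => by
        rw [smul_inv', ← mul_inv]
        exact inv_mem (ha t ht) }
  have hZY : Z ≤ Y := fun z hz t ht => mul_mem (inv_mem hz) (hZ1 t ht z hz)
  have hYh : ∀ y ∈ Y, h • y ∈ Y := fun y hy t ht => by
    have h3 := hy _ (hn t ht)
    have e : (h • y)⁻¹ * t • h • y = h • (y⁻¹ * (h⁻¹ * t * h) • y) := by
      rw [smul_mul', smul_inv', smul_smul, smul_smul, ← mul_assoc, mul_inv_cancel_left]
    rw [e, mem_fx.1 (hZ2 h3)]
    exact h3
  have e1 : Y ⊓ fx U h = Z := by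
    refine le_antisymm (hmax ⟨fun t ht z hz => ?_, inf_le_right⟩ (le_inf hZY hZ2))
      (le_inf hZY hZ2)
    rw [← mul_inv_cancel_left z (t • z)]
    exact mul_mem hz (le_inf hZY hZ2 (hz.1 t ht))
  have hne : ¬ Y ≤ Z := by
    haveI : QuotientAction T Z := ⟨fun b a a' ha => by
      rw [Subgroup.smul_def, Subgroup.smul_def, ← smul_inv', ← smul_mul']
      exact hZ1 _ b.2 _ ha⟩
    have hd : 2 ∣ Nat.card (U ⧸ Z) := by
      obtain ⟨m, hm⟩ := exists_card_two h2 (⊤ : Subgroup U)
      rw [card_top] at hm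
      obtain ⟨j, -, hj⟩ := (Nat.dvd_prime_pow Nat.prime_two).1 (hm ▸ Z.index_dvd_card)
      rcases j with _ | j
      · exact absurd (eq_top_iff.2 ((index_eq_one.1 hj).ge.trans hZ2)) h1
      · rw [← index_eq_card, hj]
        exact dvd_pow_self 2 (Nat.succ_ne_zero j)
    obtain ⟨b, hb, hb1⟩ := hT.exists_fixed_point_of_prime_dvd_card_of_fixed_point (U ⧸ Z) hd
      (a := ((1 : U) : U ⧸ Z)) fun t => by rw [Quotient.smul_coe, smul_one]
    obtain ⟨y, rfl⟩ := QuotientGroup.mk_surjective b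
    intro hle
    refine hb1 (QuotientGroup.eq.2 ?_)
    rw [inv_one, one_mul]
    refine hle fun t ht => ?_
    have := hb ⟨t, ht⟩
    rw [Quotient.smul_coe] at this
    exact QuotientGroup.eq.1 this.symm
  have h3 := card_modEq_fx (k := 1) (by rwa [pow_one]) Y hYh
  rw [e1] at h3
  have h4 : Nat.card Y ≤ 8 * Nat.card Z := by
    let f : Y →* Z :=
      { toFun := fun y => ⟨y.1⁻¹ * s • y.1, y.2 s hs⟩
        map_one' := Subtype.ext (by simp)
        map_mul' := fun a b => Subtype.ext (by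
          simp only [coe_mul, smul_mul', mul_inv]
          rw [mul_mul_mul_comm]) }
    rw [← f.ker.card_mul_index, index_ker]
    refine Nat.mul_le_mul (le_trans ?_ h8) (card_le_card_group _)
    refine Nat.card_le_card_of_injective (fun y => ⟨y.1.1, ?_⟩) fun a b e => ?_
    · exact (inv_mul_eq_one.1 (congrArg Subtype.val y.2)).symm
    · exact Subtype.ext (Subtype.ext (congrArg (fun z : fx U s => (z : U)) e))
  obtain ⟨a, ha⟩ := exists_card_two h2 Z
  obtain ⟨b, hb⟩ := exists_card_two h2 Y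
  have h5 : Nat.card Z < Nat.card Y := lt_of_not_ge fun h => hne (eq_of_le_of_card_ge hZY h).ge
  rw [ha, hb] at h3 h4 h5
  obtain ⟨j, rfl⟩ := Nat.exists_eq_add_of_lt ((Nat.pow_lt_pow_iff_right one_lt_two).1 h5)
  rw [add_assoc, pow_add] at h3 h4
  have h6 : 2 ^ (j + 1) ≤ 2 ^ 3 := by
    rw [mul_comm] at h4
    exact Nat.le_of_mul_le_mul_right h4 (by positivity)
  have h7 : 2 ^ (j + 1) ≡ 1 [MOD p] := Nat.ModEq.cancel_left_of_coprime
    (((Nat.coprime_primes hp Nat.prime_two).2 hp2).pow_right a) (by rwa [mul_one])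
  have h9 := (Nat.modEq_iff_dvd' Nat.one_le_two_pow).1 h7.symm
  have := (Nat.pow_le_pow_iff_right one_lt_two).1 h6
  obtain rfl | rfl | rfl : j = 0 ∨ j = 1 ∨ j = 2 := by omega
  · exact absurd (Nat.dvd_one.1 h9) hp.one_lt.ne'
  · exact Or.inl ((Nat.prime_dvd_prime_iff_eq hp Nat.prime_three).1 h9)
  · exact Or.inr ((Nat.prime_dvd_prime_iff_eq hp (by norm_num)).1 h9)

end Cfsg.Agent.RealG
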